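import Cfsg.Agent.H815.Rl.PslNine
import Cfsg.Agent.H55.Rl.Block
import Cfsg.Agent.H851.Rl.List10
import Cfsg.Agent.H951.Rl.BigN
import Cfsg.Agent.H304.PpdClass
import Cfsg.Agent.H659.CovCore

/-!
# S3691, row `PSL_n(q)`: PSL-16a, `(q, n) ∈ {(2, 12), (2, 18), (2, 20), (3, 18)}` (helper95)
-/

set_option autoImplicit false

namespace Cfsg.Agent.H95.Rl

open Cfsg Cfsg.Geo Matrix Cfsg.Agent.H454.Reg Cfsg.Agent.H851.Rl
open Cfsg.Agent.H304.PslT (pre pr toGL_injective range_toGL mem_specialLinear_of_mem_pre)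
open Cfsg.Agent.H304.Ppd (le_finrank_of_mem_stabilizer exists_frobenius)
open Cfsg.Agent.H728.DghpNum (Ppd)
open scoped MatrixGroups

universe u

/-! ### tools -/

section tools

variable {n : ℕ} {F : Type} [Field F]

/-- `SL ≤ pg e X` -/
theorem le_of_sl_le {G : Type u} [Group G] {T X : Subgroup G} {e : T ≃* Matrix.ProjectiveSpecialLinearGroup (Fin n) F}
    (h : specialLinear (Fin n) F ≤ pg e X) : T ≤ X := by
  intro t ht
  obtain ⟨s, hs⟩ := QuotientGroup.mk'_surjective (Subgroup.center (Matrix.SpecialLinearGroup (Fin n) F)) (e ⟨t, ht⟩)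
  have h1 : Matrix.SpecialLinearGroup.toGL s ∈ pg e X := h (by rw [← range_toGL]; exact ⟨s, rfl⟩)
  obtain ⟨s', hs', hss⟩ := h1
  rw [toGL_injective hss] at hs'
  obtain ⟨t', ht', htt⟩ := hs'
  have h2 : e t' = e ⟨t, ht⟩ := htt.trans hs
  have h3 := e.injective h2
  rw [h3] at ht'
  exact ht'

theorem pg_le {G : Type u} [Group G] {T X : Subgroup G} (e : T ≃* Matrix.ProjectiveSpecialLinearGroup (Fin n) F) :
    pg e X ≤ specialLinear (Fin n) F := fun _ hx => mem_specialLinear_of_mem_pre hx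

theorem card_pg_eq {G : Type u} [Group G] {T X : Subgroup G} (e e' : T ≃* Matrix.ProjectiveSpecialLinearGroup (Fin n) F) :
    Nat.card (pg e X) = Nat.card (pg e' X) := by
  rw [H815.Rl.card_pg, H815.Rl.card_pg]

variable {ι : Type} [Fintype ι] [DecidableEq ι]

theorem mem_of_map {R : Subgroup (GL ι F)} {W : Submodule F (ι → F)}
    (h : ∀ s ∈ matrixSet R, W.map (Matrix.toLin' s) ≤ W) {x : GL ι F} (hx : x ∈ R) {w : ι → F} (hw : w ∈ W) :
    (x : Matrix ι ι F) *ᵥ w ∈ W := by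
  have h1 := h _ ⟨x, hx, rfl⟩ (Submodule.mem_map_of_mem hw)
  rwa [Matrix.toLin'_apply] at h1

variable [Fintype F]

/-- no class `Out` over a prime field, `k` odd, coprime to `n` -/
theorem out_cases {p k : ℕ} (hp : p.Prime) (hF : Fintype.card F = p) (hk : Odd k) {R : Subgroup (GL ι F)} (h : Cfsg.Agent.H851.Rl.Out k R) :
    ∃ s, s.Prime ∧ s ∣ Fintype.card ι ∧ s ∣ k ∧ Ext s R := by
  rcases h with ⟨s, K, h1, h2, h3, h4, h5⟩ | ⟨h1, -⟩ | ⟨h1, -⟩ | ⟨-, σ, f, hf, -⟩
  · exact ⟨s, h1, h2, h3, K, h4, h5⟩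
  · exact absurd h1 (Nat.not_even_iff_odd.2 hk)
  · exact absurd h1 (Nat.not_even_iff_odd.2 hk)
  · exfalso
    obtain ⟨p', j, hp', -, hF', -⟩ := exists_frobenius hf.ne_refl hf.involutive
    rw [hF] at hF'
    rw [hF'] at hp
    exact Nat.Prime.not_prime_pow le_rfl hp

theorem exists_order {R : Subgroup (GL ι F)} {r : ℕ} (hr : r.Prime) (h : r ∣ Nat.card R) : ∃ x ∈ R, orderOf x = r := by
  have := Fact.mk hr
  have hfin : Finite (GL ι F) := inferInstance
  obtain ⟨x, hx⟩ := exists_prime_orderOf_dvd_card' (G := R) r h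
  exact ⟨x, x.2, by rw [← hx, Subgroup.orderOf_coe]⟩

/-- an element of order a primitive prime of degree `n` acts irreducibly -/
theorem irr_of {R : Subgroup (GL ι F)} {r : ℕ} (hr : Ppd (Fintype.card F) (Fintype.card ι) r) (h : r ∣ Nat.card R) :
    ActsIrreducibly (matrixSet R) := by
  intro W hW
  obtain ⟨x, hxR, hx⟩ := exists_order hr.prime h
  rcases le_finrank_of_mem_stabilizer hr hx (fun w hw => mem_of_map hW hxR hw) with h1 | h1
  · right
    apply Submodule.eq_top_of_finrank_eq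
    rw [Module.finrank_fintype_fun_eq_card]
    refine le_antisymm ?_ h1
    have := Submodule.finrank_le W
    rwa [Module.finrank_fintype_fun_eq_card] at this
  · left
    apply Submodule.finrank_eq_zero.1
    omega

/-- a reducible group of order divisible by a primitive prime of degree `n - 1` -/
theorem red_of {m : ℕ} {R : Subgroup (GL (Fin (m + 1)) F)} {r : ℕ} (hr : Ppd (Fintype.card F) m r)
    (h : r ∣ Nat.card R) (hirr : ¬ ActsIrreducibly (matrixSet R)) :
    (∃ v : Fin (m + 1) → F, v ≠ 0 ∧ ∀ x ∈ R, ∃ c : F, (x : Matrix (Fin (m + 1)) (Fin (m + 1)) F) *ᵥ v = c • v) ∨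
    ∃ W : Submodule F (Fin (m + 1) → F), Module.finrank F W + 1 = m + 1 ∧ R ≤ subspaceStabilizer W := by
  unfold ActsIrreducibly at hirr
  push Not at hirr
  obtain ⟨W, hW, h0, h1⟩ := hirr
  obtain ⟨x, hxR, hx⟩ := exists_order hr.prime h
  have h2 := le_finrank_of_mem_stabilizer hr hx (fun w hw => mem_of_map hW hxR hw)
  rw [Fintype.card_fin] at h2
  have h3 : Module.finrank F W ≠ 0 := fun h => h0 (Submodule.finrank_eq_zero.1 h)
  have h4 : Module.finrank F W < m + 1 := by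
    have := Submodule.finrank_lt h1
    rwa [Module.finrank_fin_fun] at this
  rcases h2 with h2 | h2
  · right
    refine ⟨W, by omega, fun x hx w => ?_⟩
    constructor
    · exact fun hw => mem_of_map hW hx hw
    · intro hw
      have h5 := mem_of_map hW (R.inv_mem hx) hw
      have h6 : ((x⁻¹ : GL (Fin (m + 1)) F) : Matrix (Fin (m + 1)) (Fin (m + 1)) F) *ᵥ
          ((x : Matrix (Fin (m + 1)) (Fin (m + 1)) F) *ᵥ w) = w := by
        rw [mulVec_mulVec, ← Units.val_mul, inv_mul_cancel, Units.val_one, one_mulVec]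
      rw [← h6]
      exact h5
  · left
    obtain ⟨v, hv0, hv⟩ := finrank_eq_one_iff'.1 (show Module.finrank F W = 1 by omega)
    refine ⟨v, fun h => hv0 (Subtype.ext h), fun x hx => ?_⟩
    obtain ⟨c, hc⟩ := hv ⟨_, mem_of_map hW hx v.2⟩
    exact ⟨c, (congrArg Subtype.val hc).symm⟩

end tools

/-! ### the reduction -/

section core

variable {G : Type u} [Group G] [Finite G] {T : Subgroup G}

theorem ppd_of_big {F : Type} [Fintype F] {p k r a : ℕ} (hF : Fintype.card F = p) (h : Big p 1 k r a) : Ppd (Fintype.card F) k r := by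
  refine ⟨h.prime, ?_, ?_⟩
  · rw [hF, h.ord, one_mul]
  · rw [hF]
    have := h.not_dvd_q
    rwa [pow_one] at this

theorem core {F : Type} [Field F] [Fintype F] {m k' p r rN r' : ℕ} (hp : p.Prime) (hF : Fintype.card F = p) (hm : m.Prime) (hm10 : 10 ≤ m)
    (h1 : Big p 1 m r 1)
    (hN : Ppd p (m + 1) rN) (hNm : rN ≠ m) (hN2 : ¬ rN ∣ 2)
    (h2 : Big p 1 k' r' 1) (hk' : k'.Prime) (hkm : k' < m) (hkN : m + 1 < 2 * k') (hkd : ¬ k' ∣ m + 1) (hr'm : r' ≠ m)
    (hr'2 : ¬ r' ∣ 2)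
    (hL : ∀ {n : ℕ} {R : Subgroup (GL (Fin n) F)} {k r : ℕ}, Big p 1 k r 1 → 10 ≤ n → n < 2 * k → r ∣ Nat.card R →
      ActsIrreducibly (matrixSet R) → specialLinear (Fin n) F ≤ R ∨ Cfsg.Agent.H851.Rl.Out k R)
    {X Y : Subgroup G} (h : Fac T X Y) (e : T ≃* Matrix.ProjectiveSpecialLinearGroup (Fin (m + 1)) F)
    (hY : r ∣ Nat.card (pg e Y)) :
    ∃ (e' : T ≃* Matrix.ProjectiveSpecialLinearGroup (Fin (m + 1)) F) (v : Fin (m + 1) → F), Pt (pg e' Y) v := by
  have hmodd : Odd m := hm.odd_of_ne_two (by omega)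
  have hkodd : Odd k' := hk'.odd_of_ne_two (by omega)
  have hF1 : Fintype.card F = p ^ 1 := by rw [pow_one, hF]
  have hP1 := ppd_of_big hF h1
  have hP2 := ppd_of_big hF h2
  have hPN : Ppd (Fintype.card F) (m + 1) rN := by rw [hF]; exact hN
  -- `Y` fixes a point or a hyperplane
  have hred : ¬ ActsIrreducibly (matrixSet (pg e Y)) := by
    intro hirr
    rcases hL h1 (by omega) (by omega) hY hirr with h3 | h3
    · exact h.not_le_right (le_of_sl_le h3)
    · obtain ⟨s, hs, hs1, hs2, -⟩ := out_cases hp hF hmodd h3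
      rw [Fintype.card_fin] at hs1
      have h4 : s ∣ 1 := (Nat.dvd_add_right hs2).1 hs1
      exact hs.one_lt.ne' (Nat.dvd_one.1 h4)
  obtain ⟨e₁, v, hv, hfix⟩ : ∃ (e₁ : T ≃* Matrix.ProjectiveSpecialLinearGroup (Fin (m + 1)) F) (v : Fin (m + 1) → F),
      v ≠ 0 ∧ ∀ x ∈ pg e₁ Y, ∃ c : F, (x : Matrix (Fin (m + 1)) (Fin (m + 1)) F) *ᵥ v = c • v := by
    rcases red_of hP1 hY hred with ⟨v, hv, h3⟩ | ⟨W, hW, h3⟩
    · exact ⟨e, v, hv, h3⟩
    · obtain ⟨e', he'⟩ := H815.Rl.twist (by omega) e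
      obtain ⟨v, hv, h4⟩ := H815.Rl.dual_fix hW h3
      exact ⟨e', v, hv, by rw [he']; exact h4⟩
  obtain ⟨φ, hker, hφ⟩ := H55.Rl.block hv (pg_le e₁) hfix
  have hcard : Nat.card (pg e₁ Y) = Nat.card φ.range * Nat.card φ.ker := by
    rw [← Subgroup.index_ker, Subgroup.index_mul_card]
  have hY1 : r ∣ Nat.card (pg e₁ Y) := by rwa [card_pg_eq e₁ e]
  have hkr : ∀ {r : ℕ}, r.Prime → ¬ r ∣ Fintype.card F → r ∣ Nat.card (pg e₁ Y) → r ∣ Nat.card φ.range := by
    intro r hr hrF hrY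
    rw [hcard, hr.dvd_mul] at hrY
    rcases hrY with h3 | h3
    · exact h3
    · exact absurd (hr.dvd_of_dvd_pow (h3.trans hker)) hrF
  have hYr := hkr h1.prime hP1.ndvd hY1
  have hP1' : Ppd (Fintype.card F) (Fintype.card (Fin m)) r := by rw [Fintype.card_fin]; exact hP1
  rcases hL h1 hm10 (by omega) hYr (irr_of hP1' hYr) with h3 | h3
  · exact ⟨e₁, v, hφ h3⟩
  exfalso
  obtain ⟨s, hs, hs1, -, hE⟩ := out_cases hp hF hmodd h3
  rw [Fintype.card_fin, Nat.prime_dvd_prime_iff_eq hs hm] at hs1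
  subst hs1
  have hne : Nonempty (Fin s) := ⟨⟨0, by omega⟩⟩
  -- the other primes divide the order of `X`
  have hnot : ∀ {k₁ r₁ : ℕ}, Ppd (Fintype.card F) k₁ r₁ → s < 2 * k₁ → r₁ ≠ s → ¬ s ∣ k₁ → ¬ r₁ ∣ Nat.card (pg e₁ Y) := by
    intro k₁ r₁ hP hk₁ hrs hsk hd
    have ho : orderOf ((p : ℕ) : ZMod r₁) = 1 * k₁ := by rw [one_mul, ← hF]; exact hP.ord
    rcases ext_dvd (p := p) (f := 1) (k' := k₁) hs hF1 hP.prime ho le_rfl (by omega)
      (by rw [Fintype.card_fin]; exact hk₁) hne hE (hkr hP.prime hP.ndvd hd) with h4 | h4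
    · exact hrs h4
    · exact hsk h4
  have hX : ∀ {k₁ r₁ : ℕ}, Ppd (Fintype.card F) k₁ r₁ → s + 1 < 2 * k₁ → k₁ ≤ s + 1 → r₁ ≠ s → ¬ s ∣ k₁ → ¬ r₁ ∣ 2 →
      r₁ ∣ Nat.card (pg e₁ X) := by
    intro k₁ r₁ hP hk₁ hk2 hrs hsk hr2
    have hn1 := hnot hP (by omega) hrs hsk
    have hv1 : r₁ ∣ r₁ ^ (Fintype.card F ^ k₁ - 1).factorization r₁ := by
      apply dvd_pow_self
      have h4 : r₁ ∣ Fintype.card F ^ k₁ - 1 := by
        have h5 : 1 ≤ Fintype.card F ^ k₁ := Nat.one_le_pow _ _ Fintype.card_pos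
        rw [← ZMod.natCast_eq_zero_iff, Nat.cast_sub h5, Nat.cast_one, sub_eq_zero, Nat.cast_pow,
          ← orderOf_dvd_iff_pow_eq_one, hP.ord]
      have h6 : 1 < Fintype.card F ^ k₁ := Nat.one_lt_pow (by omega) Fintype.one_lt_card
      exact (hP.prime.factorization_pos_of_dvd (by omega) h4).ne'
    rcases H815.Rl.side h (by omega) e₁ hp hF1 hP.prime hP.ord hk₁ hk2 (by rwa [mul_one]) with ⟨h4, -⟩ | ⟨h4, -⟩
    · exact hv1.trans h4
    · exact absurd (hv1.trans h4) hn1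
  have hXN := hX hPN (by omega) le_rfl hNm (by
    intro h4
    have h5 : s ∣ 1 := (Nat.dvd_add_right dvd_rfl).1 h4
    exact hs.one_lt.ne' (Nat.dvd_one.1 h5)) hN2
  have hXk := hX hP2 hkN (by omega) hr'm (by
    intro h4
    have := Nat.le_of_dvd hk'.pos h4
    omega) hr'2
  have hPN' : Ppd (Fintype.card F) (Fintype.card (Fin (s + 1))) rN := by rw [Fintype.card_fin]; exact hPN
  rcases hL h2 (by omega) hkN hXk (irr_of hPN' hXN) with h4 | h4
  · exact h.not_le_left (le_of_sl_le h4)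
  · obtain ⟨t, ht, ht1, ht2, -⟩ := out_cases hp hF hkodd h4
    rw [Nat.prime_dvd_prime_iff_eq ht hk'] at ht2
    rw [Fintype.card_fin, ht2] at ht1
    exact hkd ht1

/-- the numbers -/
structure Nums (p m k' r rN r' : ℕ) : Prop where
  hp : p.Prime
  hm : m.Prime
  hm10 : 10 ≤ m
  h1 : Big p 1 m r 1
  hr2 : ¬ r ∣ 2
  hN : Ppd p (m + 1) rN
  hNm : rN ≠ m
  hN2 : ¬ rN ∣ 2
  h2 : Big p 1 k' r' 1
  hk' : k'.Prime
  hkm : k' < m
  hkN : m + 1 < 2 * k'
  hkd : ¬ k' ∣ m + 1
  hr'm : r' ≠ m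
  hr'2 : ¬ r' ∣ 2

theorem core' {F : Type} [Field F] [Fintype F] {m k' p r rN r' : ℕ} (N : Nums p m k' r rN r') (hF : Fintype.card F = p)
    (hL : ∀ {n : ℕ} {R : Subgroup (GL (Fin n) F)} {k r : ℕ}, Big p 1 k r 1 → 10 ≤ n → n < 2 * k → r ∣ Nat.card R →
      ActsIrreducibly (matrixSet R) → specialLinear (Fin n) F ≤ R ∨ Cfsg.Agent.H851.Rl.Out k R)
    {X Y : Subgroup G} (h : Fac T X Y) (e : T ≃* Matrix.ProjectiveSpecialLinearGroup (Fin (m + 1)) F) :
    ∃ (e' : T ≃* Matrix.ProjectiveSpecialLinearGroup (Fin (m + 1)) F) (v : Fin (m + 1) → F),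
      Pt (pg e' X) v ∨ Pt (pg e' Y) v := by
  have hP1 := ppd_of_big hF N.h1
  have hm10 := N.hm10
  have hv1 : r ∣ r ^ (Fintype.card F ^ m - 1).factorization r := by
    apply dvd_pow_self
    have h4 : r ∣ Fintype.card F ^ m - 1 := by
      have h5 : 1 ≤ Fintype.card F ^ m := Nat.one_le_pow _ _ Fintype.card_pos
      rw [← ZMod.natCast_eq_zero_iff, Nat.cast_sub h5, Nat.cast_one, sub_eq_zero, Nat.cast_pow,
        ← orderOf_dvd_iff_pow_eq_one, hP1.ord]
    have h6 : 1 < Fintype.card F ^ m := Nat.one_lt_pow (by omega) Fintype.one_lt_card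
    exact (hP1.prime.factorization_pos_of_dvd (by omega) h4).ne'
  rcases H815.Rl.side h (by omega) e N.hp (show Fintype.card F = p ^ 1 by rw [pow_one, hF]) hP1.prime hP1.ord
    (by omega) (by omega) (by rw [mul_one]; exact N.hr2) with ⟨h4, -⟩ | ⟨h4, -⟩
  · obtain ⟨e', v, h5⟩ := core N.hp hF N.hm N.hm10 N.h1 N.hN N.hNm N.hN2 N.h2 N.hk' N.hkm N.hkN N.hkd N.hr'm N.hr'2
      hL h.symm e (hv1.trans h4)
    exact ⟨e', v, Or.inl h5⟩
  · obtain ⟨e', v, h5⟩ := core N.hp hF N.hm N.hm10 N.h1 N.hN N.hNm N.hN2 N.h2 N.hk' N.hkm N.hkN N.hkd N.hr'm N.hr'2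
      hL h e (hv1.trans h4)
    exact ⟨e', v, Or.inr h5⟩

theorem big_one {p k r : ℕ} (hp : p.Prime) (hr : r.Prime) (hk : 1 ≤ k) (h1 : r ∣ p ^ k - 1)
    (h2 : ∀ i : ℕ, 1 ≤ i → i < k → ¬ r ∣ p ^ i - 1) (h3 : 2 * k + 1 < r) : Big p 1 k r 1 where
  hp := hp
  prime := hr
  ord := by rw [one_mul]; exact H951.Rl.ord_of_prim hp.two_le hk h1 h2
  hf := le_rfl
  hk := hk
  dvd := by rw [pow_one, pow_one]; exact h1
  big := by rw [pow_one]; exact h3

theorem nums_12 : Nums 2 11 7 89 13 127 where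
  hp := Nat.prime_two
  hm := by norm_num
  hm10 := by norm_num
  h1 := big_one Nat.prime_two (by norm_num) (by norm_num) (by norm_num)
    (by intro i h1 h2; interval_cases i <;> norm_num) (by norm_num)
  hr2 := by norm_num
  hN := ⟨by norm_num, H951.Rl.ord_of_prim le_rfl (by norm_num) (by norm_num)
    (by intro i h1 h2; interval_cases i <;> norm_num), by norm_num⟩
  hNm := by norm_num
  hN2 := by norm_num
  h2 := big_one Nat.prime_two (by norm_num) (by norm_num) (by norm_num)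
    (by intro i h1 h2; interval_cases i <;> norm_num) (by norm_num)
  hk' := by norm_num
  hkm := by norm_num
  hkN := by norm_num
  hkd := by norm_num
  hr'm := by norm_num
  hr'2 := by norm_num

theorem nums_18 : Nums 2 17 11 131071 19 89 where
  hp := Nat.prime_two
  hm := by norm_num
  hm10 := by norm_num
  h1 := big_one Nat.prime_two (by norm_num) (by norm_num) (by norm_num)
    (by intro i h1 h2; interval_cases i <;> norm_num) (by norm_num)
  hr2 := by norm_num
  hN := ⟨by norm_num, H951.Rl.ord_of_prim le_rfl (by norm_num) (by norm_num)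
    (by intro i h1 h2; interval_cases i <;> norm_num), by norm_num⟩
  hNm := by norm_num
  hN2 := by norm_num
  h2 := big_one Nat.prime_two (by norm_num) (by norm_num) (by norm_num)
    (by intro i h1 h2; interval_cases i <;> norm_num) (by norm_num)
  hk' := by norm_num
  hkm := by norm_num
  hkN := by norm_num
  hkd := by norm_num
  hr'm := by norm_num
  hr'2 := by norm_num

theorem nums_20 : Nums 2 19 11 524287 41 89 where
  hp := Nat.prime_two
  hm := by norm_num
  hm10 := by norm_num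
  h1 := big_one Nat.prime_two (by norm_num) (by norm_num) (by norm_num)
    (by intro i h1 h2; interval_cases i <;> norm_num) (by norm_num)
  hr2 := by norm_num
  hN := ⟨by norm_num, H951.Rl.ord_of_prim le_rfl (by norm_num) (by norm_num)
    (by intro i h1 h2; interval_cases i <;> norm_num), by norm_num⟩
  hNm := by norm_num
  hN2 := by norm_num
  h2 := big_one Nat.prime_two (by norm_num) (by norm_num) (by norm_num)
    (by intro i h1 h2; interval_cases i <;> norm_num) (by norm_num)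
  hk' := by norm_num
  hkm := by norm_num
  hkN := by norm_num
  hkd := by norm_num
  hr'm := by norm_num
  hr'2 := by norm_num

theorem nums_3_18 : Nums 3 17 11 1871 19 3851 where
  hp := Nat.prime_three
  hm := by norm_num
  hm10 := by norm_num
  h1 := big_one Nat.prime_three (by norm_num) (by norm_num) (by norm_num)
    (by intro i h1 h2; interval_cases i <;> norm_num) (by norm_num)
  hr2 := by norm_num
  hN := ⟨by norm_num, H951.Rl.ord_of_prim (by norm_num) (by norm_num) (by norm_num)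
    (by intro i h1 h2; interval_cases i <;> norm_num), by norm_num⟩
  hNm := by norm_num
  hN2 := by norm_num
  h2 := big_one Nat.prime_three (by norm_num) (by norm_num) (by norm_num)
    (by intro i h1 h2; interval_cases i <;> norm_num) (by norm_num)
  hk' := by norm_num
  hkm := by norm_num
  hkN := by norm_num
  hkd := by norm_num
  hr'm := by norm_num
  hr'2 := by norm_num

/-- the reduction, given the list lemma -/
theorem red_A_of {F : Type} [Field F] [Fintype F]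
    (hL : ∀ {p n : ℕ} {R : Subgroup (GL (Fin n) F)} {k r : ℕ}, Fintype.card F = p → Big p 1 k r 1 → 10 ≤ n →
      n < 2 * k → r ∣ Nat.card R → ActsIrreducibly (matrixSet R) →
        specialLinear (Fin n) F ≤ R ∨ Cfsg.Agent.H851.Rl.Out k R)
    {n : ℕ} {X Y : Subgroup G} (h : Fac T X Y) (e : T ≃* Matrix.ProjectiveSpecialLinearGroup (Fin n) F)
    (hq : (Fintype.card F, n) ∈ ({(2, 12), (2, 18), (2, 20), (3, 18)} : Finset (ℕ × ℕ))) :
    ∃ (e' : T ≃* Matrix.ProjectiveSpecialLinearGroup (Fin n) F) (v : Fin n → F), Pt (pg e' X) v ∨ Pt (pg e' Y) v := by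
  simp only [Finset.mem_insert, Finset.mem_singleton, Prod.mk.injEq] at hq
  rcases hq with ⟨h1, rfl⟩ | ⟨h1, rfl⟩ | ⟨h1, rfl⟩ | ⟨h1, rfl⟩
  · exact core' nums_12 h1 (fun hB => hL h1 hB) h e
  · exact core' nums_18 h1 (fun hB => hL h1 hB) h e
  · exact core' nums_20 h1 (fun hB => hL h1 hB) h e
  · exact core' nums_3_18 h1 (fun hB => hL h1 hB) h e

/-- **PSL-16a** -/
theorem red_A {F : Type} [Field F] [Fintype F] {n : ℕ} (hP : H659.CovCore.S5948Stmt.{0}) {X Y : Subgroup G}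
    (h : Fac T X Y) (e : T ≃* Matrix.ProjectiveSpecialLinearGroup (Fin n) F)
    (hq : (Fintype.card F, n) ∈ ({(2, 12), (2, 18), (2, 20), (3, 18)} : Finset (ℕ × ℕ))) :
    ∃ (e' : T ≃* Matrix.ProjectiveSpecialLinearGroup (Fin n) F) (v : Fin n → F), Pt (pg e' X) v ∨ Pt (pg e' Y) v := by
  refine red_A_of ?_ h e hq
  intro p n R k r hF hB h10 hn hR hirr
  by_cases h1 : specialLinear (Fin n) F ≤ R
  · exact Or.inl h1
  · right
    exact list10 (gpps_of hP) (by rw [pow_one, hF]) hB (by rwa [Fintype.card_fin]) (by rwa [Fintype.card_fin])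
      (by rwa [pow_one]) hirr h1

end core

end Cfsg.Agent.H95.Rl
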